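import Mathlib

/-!
# Two computations in `A₅` (by kernel evaluation)
-/

set_option autoImplicit false

namespace Cfsg.Agent.Lib.Helper68.HJO

/-- In `A₅`: the number of pairs `(u, b)` with `u` an involution, `b² = 1` and `u b` of odd
order is `195`. -/
theorem a5_pair_count :
    (Finset.univ.filter (fun p : alternatingGroup (Fin 5) × alternatingGroup (Fin 5) =>
      p.1 ≠ 1 ∧ p.1 * p.1 = 1 ∧ p.2 * p.2 = 1 ∧ (p.1 * p.2) ^ 15 = 1)).card = 195 := by
  decide +kernel

/-- In `A₅`: the centralizer of an involution has `4` elements, all of square `1`. -/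
theorem a5_cent_invol : ∀ w : alternatingGroup (Fin 5), w ≠ 1 → w * w = 1 →
    (Finset.univ.filter (fun b : alternatingGroup (Fin 5) => b * w = w * b)).card = 4 ∧
    ∀ b : alternatingGroup (Fin 5), b * w = w * b → b * b = 1 := by
  decide +kernel

theorem a5_card : Nat.card (alternatingGroup (Fin 5)) = 60 := by
  rw [Nat.card_eq_fintype_card]
  decide +kernel

end Cfsg.Agent.Lib.Helper68.HJO
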