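import Mathlib
import Cfsg.Agent.Lib.Helper49.HJO.Defs
import Cfsg.Agent.Lib.Helper68.HJO.A5Facts

/-!
# HJO package [N2]: the Thompson count `n₂ = 195`
-/

set_option autoImplicit false

namespace Cfsg.Agent.Lib.Helper68.HJO

open Cfsg.Agent.Lib.Helper49.HJO

universe u

section general

variable {G : Type u} [Group G]

theorem sq_of_orderOf_two {x : G} (h : orderOf x = 2) : x * x = 1 := by
  have := pow_orderOf_eq_one x
  rw [h, sq] at this
  exact this

theorem ne_one_of_orderOf_two {x : G} (h : orderOf x = 2) : x ≠ 1 := by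
  rintro rfl
  simp at h

theorem orderOf_two_of {x : G} (h1 : x ≠ 1) (h2 : x * x = 1) : orderOf x = 2 := by
  have : Fact (Nat.Prime 2) := ⟨Nat.prime_two⟩
  exact orderOf_eq_prime (by rw [sq]; exact h2) h1

theorem isConj_orderOf_two {x y : G} (h : IsConj x y) (hx : orderOf x = 2) : orderOf y = 2 := by
  obtain ⟨c, hc⟩ := isConj_iff.mp h
  subst hc
  apply orderOf_two_of
  · intro h1
    apply ne_one_of_orderOf_two hx
    have : x = c⁻¹ * (c * x * c⁻¹) * c := by group
    rw [this, h1]; group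
  · have := sq_of_orderOf_two hx
    calc c * x * c⁻¹ * (c * x * c⁻¹) = c * (x * x) * c⁻¹ := by group
      _ = 1 := by rw [this]; group

/-- If `t` is an involution in `⟨u v⟩` with `u`, `v` involutions, then `u` and `v` commute
with `t`. -/
theorem comm_of_mem_zpowers {u v t : G} (hu : u * u = 1) (hv : v * v = 1) (ht : t * t = 1)
    (h : t ∈ Subgroup.zpowers (u * v)) : u * t = t * u ∧ v * t = t * v := by
  obtain ⟨k, rfl⟩ := Subgroup.mem_zpowers_iff.mp h
  have huinv : u⁻¹ = u := inv_eq_of_mul_eq_one_left hu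
  have hvinv : v⁻¹ = v := inv_eq_of_mul_eq_one_left hv
  have htinv : ((u * v) ^ k)⁻¹ = (u * v) ^ k := inv_eq_of_mul_eq_one_left ht
  have h1 : u * (u * v) * u⁻¹ = (u * v)⁻¹ := by
    rw [mul_inv_rev, huinv, hvinv, ← mul_assoc, hu, one_mul]
  have h2 : v * (u * v) * v⁻¹ = (u * v)⁻¹ := by
    rw [mul_inv_rev, huinv, hvinv, mul_assoc, mul_assoc, hv, mul_one]
  constructor
  · have : u * (u * v) ^ k * u⁻¹ = (u * v) ^ k := by
      rw [← conj_zpow, h1, inv_zpow, htinv]
    calc u * (u * v) ^ k = u * (u * v) ^ k * u⁻¹ * u := by group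
      _ = (u * v) ^ k * u := by rw [this]
  · have : v * (u * v) ^ k * v⁻¹ = (u * v) ^ k := by
      rw [← conj_zpow, h2, inv_zpow, htinv]
    calc v * (u * v) ^ k = v * (u * v) ^ k * v⁻¹ * v := by group
      _ = (u * v) ^ k * v := by rw [this]

/-- Elements of the join of two elementwise commuting subgroups are products. -/
theorem exists_mul_of_mem_sup_comm (V B : Subgroup G)
    (hc : ∀ a ∈ V, ∀ b ∈ B, a * b = b * a) {x : G} (hx : x ∈ V ⊔ B) :
    ∃ a ∈ V, ∃ b ∈ B, x = a * b := by
  let W : Subgroup G :=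
    { carrier := {x | ∃ a ∈ V, ∃ b ∈ B, x = a * b}
      one_mem' := ⟨1, V.one_mem, 1, B.one_mem, by simp⟩
      mul_mem' := by
        rintro x y ⟨a, ha, b, hb, rfl⟩ ⟨a', ha', b', hb', rfl⟩
        refine ⟨a * a', V.mul_mem ha ha', b * b', B.mul_mem hb hb', ?_⟩
        calc a * b * (a' * b') = a * (b * a') * b' := by group
          _ = a * (a' * b) * b' := by rw [hc a' ha' b hb]
          _ = a * a' * (b * b') := by group
      inv_mem' := by
        rintro x ⟨a, ha, b, hb, rfl⟩
        refine ⟨a⁻¹, V.inv_mem ha, b⁻¹, B.inv_mem hb, ?_⟩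
        rw [mul_inv_rev, hc a⁻¹ (V.inv_mem ha) b⁻¹ (B.inv_mem hb)] }
  have hW : V ⊔ B ≤ W := by
    apply sup_le
    · intro a ha; exact ⟨a, ha, 1, B.one_mem, by simp⟩
    · intro b hb; exact ⟨1, V.one_mem, b, hb, by simp⟩
  exact hW hx

/-- Odd order in a group of exponent dividing `60`. -/
theorem pow_fifteen_of_zpow_odd {x : G} (h60 : x ^ 60 = 1) {k : ℤ} (hk : Odd k)
    (hx : x ^ k = 1) : x ^ 15 = 1 := by
  have h1 : orderOf x ∣ 60 := orderOf_dvd_of_pow_eq_one h60
  have h2 : (orderOf x : ℤ) ∣ k := orderOf_dvd_iff_zpow_eq_one.mpr hx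
  have h3 : orderOf x ∣ k.natAbs := Int.natCast_dvd.mp h2
  have h4 : Odd k.natAbs := Int.natAbs_odd.mpr hk
  have h5 : Odd (orderOf x) := Odd.of_dvd_nat h4 h3
  have h6 : Nat.Coprime (orderOf x) 4 := by
    have : Nat.Coprime (orderOf x) 2 := Nat.coprime_two_right.mpr h5
    exact Nat.Coprime.pow_right 2 this
  have h7 : orderOf x ∣ 15 := by
    apply Nat.Coprime.dvd_of_dvd_mul_left h6
    exact h1
  exact orderOf_dvd_iff_pow_eq_one.mp h7

end general

/-- Transport of the `A₅` pair count to a subgroup `B ≅ A₅`. -/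
theorem card_pairs_of_iso {G : Type u} [Group G] (B : Subgroup G)
    (e : ↥B ≃* alternatingGroup (Fin 5)) :
    Nat.card {p : G × G // p.1 ∈ B ∧ p.2 ∈ B ∧ p.1 ≠ 1 ∧ p.1 * p.1 = 1 ∧ p.2 * p.2 = 1 ∧
      (p.1 * p.2) ^ 15 = 1} = 195 := by
  have hcount : Nat.card {p : alternatingGroup (Fin 5) × alternatingGroup (Fin 5) //
      p.1 ≠ 1 ∧ p.1 * p.1 = 1 ∧ p.2 * p.2 = 1 ∧ (p.1 * p.2) ^ 15 = 1} = 195 := by
    rw [Nat.card_eq_fintype_card, Fintype.card_subtype]
    exact a5_pair_count
  rw [← hcount]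
  refine Nat.card_eq_of_bijective
    (fun p => ⟨(e ⟨p.1.1, p.2.1⟩, e ⟨p.1.2, p.2.2.1⟩), ?_⟩) ⟨?_, ?_⟩
  · obtain ⟨⟨x, y⟩, hx, hy, hx1, hxx, hyy, hxy⟩ := p
    dsimp only at hx hy hx1 hxx hyy hxy ⊢
    refine ⟨?_, ?_, ?_, ?_⟩
    · intro h
      apply hx1
      have : (⟨x, hx⟩ : ↥B) = 1 := by
        apply e.injective; rw [h, map_one]
      exact congrArg Subtype.val this
    · rw [← map_mul]
      have : (⟨x, hx⟩ : ↥B) * ⟨x, hx⟩ = 1 := Subtype.ext hxx
      rw [this, map_one]
    · rw [← map_mul]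
      have : (⟨y, hy⟩ : ↥B) * ⟨y, hy⟩ = 1 := Subtype.ext hyy
      rw [this, map_one]
    · rw [← map_mul, ← map_pow]
      have : ((⟨x, hx⟩ : ↥B) * ⟨y, hy⟩) ^ 15 = 1 := Subtype.ext hxy
      rw [this, map_one]
  · rintro ⟨⟨x, y⟩, hx, hy, hx1, hxx, hyy, hxy⟩ ⟨⟨x', y'⟩, hx', hy', hx1', hxx', hyy', hxy'⟩ h
    have h' := congrArg Subtype.val h
    dsimp only at h'
    have h1 := congrArg Prod.fst h'
    have h2 := congrArg Prod.snd h'
    dsimp only at h1 h2
    have h1' := congrArg Subtype.val (e.injective h1)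
    have h2' := congrArg Subtype.val (e.injective h2)
    dsimp only at h1' h2'
    subst h1' h2'
    rfl
  · rintro ⟨⟨a, b⟩, ha1, haa, hbb, hab⟩
    dsimp only at ha1 haa hbb hab
    refine ⟨⟨(((e.symm a : ↥B) : G), ((e.symm b : ↥B) : G)), (e.symm a).2, (e.symm b).2,
      ?_, ?_, ?_, ?_⟩, ?_⟩
    · intro h
      apply ha1
      have : e.symm a = 1 := Subtype.ext h
      have h3 := congrArg e this
      rwa [e.apply_symm_apply, map_one] at h3
    · have : e.symm a * e.symm a = 1 := by rw [← map_mul, haa, map_one]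
      exact congrArg Subtype.val this
    · have : e.symm b * e.symm b = 1 := by rw [← map_mul, hbb, map_one]
      exact congrArg Subtype.val this
    · have : (e.symm a * e.symm b) ^ 15 = 1 := by rw [← map_mul, ← map_pow, hab, map_one]
      exact congrArg Subtype.val this
    · apply Subtype.ext
      dsimp only
      rw [Subtype.coe_eta, Subtype.coe_eta, e.apply_symm_apply, e.apply_symm_apply]

/-- [N2] -/
theorem pkgN2 : PkgN2.{u} := by
  intro G _ _ z t V B hz ht hzt hprod hV htV hB hBz hCt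
  obtain ⟨hVC, hBC, hcomm, hVB, hsup⟩ := hprod
  obtain ⟨e⟩ := hB
  have hzz := sq_of_orderOf_two hz
  have htt := sq_of_orderOf_two ht
  have ht1 := ne_one_of_orderOf_two ht
  have hCmem : ∀ x : G, x ∈ Subgroup.centralizer ({t} : Set G) ↔ x * t = t * x := by
    intro x
    rw [Subgroup.mem_centralizer_iff]
    constructor
    · intro h; exact (h t rfl).symm
    · intro h y hy
      rw [Set.mem_singleton_iff] at hy
      subst hy
      exact h.symm
  have htB : t ∉ B := by
    intro h
    have : t ∈ V ⊓ B := ⟨htV, h⟩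
    rw [hVB, Subgroup.mem_bot] at this
    exact ht1 this
  have hBt : ∀ b ∈ B, b * t = t * b := fun b hb => (hCmem b).mp (hBC hb)
  have h60 : ∀ b ∈ B, b ^ 60 = 1 := by
    intro b hb
    have hcard : Nat.card ↥B = 60 := by
      rw [Nat.card_congr e.toEquiv]; exact a5_card
    have : (⟨b, hb⟩ : ↥B) ^ 60 = 1 := by
      rw [← hcard]; exact pow_card_eq_one'
    exact congrArg Subtype.val this
  rw [← card_pairs_of_iso B e]
  symm
  refine Nat.card_eq_of_bijective (fun p => ⟨(p.1.1, t * p.1.2), ?_⟩) ⟨?_, ?_⟩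
  · obtain ⟨⟨x, y⟩, hx, hy, hx1, hxx, hyy, hxy⟩ := p
    dsimp only at hx hy hx1 hxx hyy hxy ⊢
    have hty : t * y ∉ B := by
      intro h
      apply htB
      have : t = t * y * y⁻¹ := by group
      rw [this]
      exact B.mul_mem h (B.inv_mem hy)
    have hty1 : t * y ≠ 1 := fun h => hty (h ▸ B.one_mem)
    have htyC : t * y ∈ Subgroup.centralizer ({t} : Set G) := by
      rw [hCmem]
      rw [mul_assoc, hBt y hy]
    have htysq : t * y * (t * y) = 1 := by
      calc t * y * (t * y) = t * (y * t) * y := by group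
        _ = t * (t * y) * y := by rw [hBt y hy]
        _ = (t * t) * (y * y) := by group
        _ = 1 := by rw [htt, hyy, one_mul]
    refine ⟨(hBz x hx (orderOf_two_of hx1 hxx)).symm,
      (hCt (t * y) htyC (orderOf_two_of hty1 htysq) hty).symm, ?_⟩
    have h1 : x * (t * y) = t * (x * y) := by
      rw [← mul_assoc, hBt x hx, mul_assoc]
    have hc : Commute t (x * y) := by
      have := hBt (x * y) (B.mul_mem hx hy)
      exact this.symm
    have h2 : (x * (t * y)) ^ 15 = t := by
      rw [h1, hc.mul_pow, hxy, mul_one]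
      have : t ^ 15 = (t * t) ^ 7 * t := by
        rw [← sq, ← pow_mul, ← pow_succ]
      rw [this, htt, one_pow, one_mul]
    have h3 : (x * (t * y)) ^ 15 ∈ Subgroup.zpowers (x * (t * y)) :=
      Subgroup.npow_mem_zpowers _ _
    rw [h2] at h3
    exact h3
  · rintro ⟨⟨x, y⟩, hx, hy, hx1, hxx, hyy, hxy⟩ ⟨⟨x', y'⟩, hx', hy', hx1', hxx', hyy', hxy'⟩ h
    have h' := congrArg Subtype.val h
    dsimp only at h'
    have h1 := congrArg Prod.fst h'
    have h2 := congrArg Prod.snd h'
    dsimp only at h1 h2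
    have h3 : y = y' := mul_left_cancel h2
    subst h1 h3
    rfl
  · rintro ⟨⟨u, v⟩, huz, hvt, hmem⟩
    dsimp only at huz hvt hmem
    have hu2 : orderOf u = 2 := isConj_orderOf_two huz hz
    have hv2 : orderOf v = 2 := isConj_orderOf_two hvt ht
    have huu := sq_of_orderOf_two hu2
    have hvv := sq_of_orderOf_two hv2
    obtain ⟨hut, hvt'⟩ := comm_of_mem_zpowers huu hvv htt hmem
    have huC : u ∈ Subgroup.centralizer ({t} : Set G) := (hCmem u).mpr hut
    have hvC : v ∈ Subgroup.centralizer ({t} : Set G) := (hCmem v).mpr hvt'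
    have huB : u ∈ B := by
      by_contra h
      exact hzt (huz.trans (hCt u huC hu2 h))
    have hvB : v ∉ B := by
      intro h
      exact hzt ((hvt.trans (hBz v h hv2)).symm)
    rw [← hsup] at hvC
    obtain ⟨a, ha, b, hb, rfl⟩ := exists_mul_of_mem_sup_comm V B hcomm hvC
    have haa : a * a = 1 := by rw [← sq]; exact hV a ha
    have hab : a * b = b * a := hcomm a ha b hb
    have hbb : b * b = 1 := by
      have : a * b * (a * b) = (a * a) * (b * b) := by
        calc a * b * (a * b) = a * (b * a) * b := by group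
          _ = a * (a * b) * b := by rw [hab]
          _ = (a * a) * (b * b) := by group
      rw [this, haa, one_mul] at hvv
      exact hvv
    obtain ⟨k, hk⟩ := Subgroup.mem_zpowers_iff.mp hmem
    have hua : u * a = a * u := (hcomm a ha u huB).symm
    have h1 : u * (a * b) = a * (u * b) := by
      rw [← mul_assoc, hua, mul_assoc]
    have hc : Commute a (u * b) := hcomm a ha (u * b) (B.mul_mem huB hb)
    rw [h1, hc.mul_zpow] at hk
    -- split into the `V` part and the `B` part
    have hsplit : a ^ k = t ∧ (u * b) ^ k = 1 := by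
      have hm : t⁻¹ * a ^ k ∈ V ⊓ B := by
        refine ⟨V.mul_mem (V.inv_mem htV) (V.zpow_mem ha k), ?_⟩
        have : t⁻¹ * a ^ k = ((u * b) ^ k)⁻¹ := by
          rw [← hk]; group
        rw [this]
        exact B.inv_mem (B.zpow_mem (B.mul_mem huB hb) k)
      rw [hVB, Subgroup.mem_bot] at hm
      have hak : a ^ k = t := by
        calc a ^ k = t * (t⁻¹ * a ^ k) := by group
          _ = t := by rw [hm, mul_one]
      refine ⟨hak, ?_⟩
      rw [hak] at hk
      exact mul_left_cancel (hk.trans (mul_one t).symm)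
    obtain ⟨hak, hubk⟩ := hsplit
    have hkodd : Odd k := by
      rcases Int.even_or_odd k with hev | hodd
      · exfalso
        obtain ⟨m, rfl⟩ := hev
        apply ht1
        rw [← hak, ← two_mul, zpow_mul, zpow_ofNat, sq, haa, one_zpow]
      · exact hodd
    have hat : a = t := by
      obtain ⟨m, rfl⟩ := hkodd
      rw [zpow_add, zpow_mul, zpow_ofNat, sq, haa, one_zpow, one_mul, zpow_one] at hak
      exact hak
    have hub15 : (u * b) ^ 15 = 1 :=
      pow_fifteen_of_zpow_odd (h60 _ (B.mul_mem huB hb)) hkodd hubk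
    refine ⟨⟨(u, b), huB, hb, ne_one_of_orderOf_two hu2, huu, hbb, hub15⟩, ?_⟩
    apply Subtype.ext
    dsimp only
    rw [hat]

end Cfsg.Agent.Lib.Helper68.HJO
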