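import Mathlib
import Cfsg.Agent.Lib.Helper49.HJO.Defs
import Cfsg.Agent.Lib.Helper68.HJO.A5Facts
import Cfsg.Agent.Lib.Helper68.HJO.N2

/-!
# HJO package [CENT]: centralizers in `Q` of involutions of `C(z)` outside `Q`
-/

set_option autoImplicit false

namespace Cfsg.Agent.Lib.Helper68.HJO

open Cfsg.Agent.Lib.Helper49.HJO

universe u

/-- Transport of the `A₅` centralizer fact to a subgroup `B ≅ A₅`. -/
theorem cent_invol_of_iso {G : Type u} [Group G] (B : Subgroup G)
    (e : ↥B ≃* alternatingGroup (Fin 5)) (w : G) (hw : w ∈ B) (hw1 : w ≠ 1) (hww : w * w = 1) :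
    Nat.card {b : G // b ∈ B ∧ b * w = w * b} = 4 ∧ ∀ b ∈ B, b * w = w * b → b * b = 1 := by
  have hw1' : e ⟨w, hw⟩ ≠ 1 := by
    intro h
    apply hw1
    have : (⟨w, hw⟩ : ↥B) = 1 := by
      apply e.injective; rw [h, map_one]
    exact congrArg Subtype.val this
  have hww' : e ⟨w, hw⟩ * e ⟨w, hw⟩ = 1 := by
    rw [← map_mul]
    have : (⟨w, hw⟩ : ↥B) * ⟨w, hw⟩ = 1 := Subtype.ext hww
    rw [this, map_one]
  obtain ⟨hc, hs⟩ := a5_cent_invol (e ⟨w, hw⟩) hw1' hww'
  have hcomm : ∀ b (hb : b ∈ B), b * w = w * b → e ⟨b, hb⟩ * e ⟨w, hw⟩ = e ⟨w, hw⟩ * e ⟨b, hb⟩ := by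
    intro b hb h
    rw [← map_mul, ← map_mul]
    congr 1
    exact Subtype.ext h
  constructor
  · have hcount : Nat.card {b : alternatingGroup (Fin 5) // b * e ⟨w, hw⟩ = e ⟨w, hw⟩ * b} = 4 := by
      rw [Nat.card_eq_fintype_card, Fintype.card_subtype]
      exact hc
    rw [← hcount]
    refine Nat.card_eq_of_bijective (fun b => ⟨e ⟨b.1, b.2.1⟩, hcomm b.1 b.2.1 b.2.2⟩) ⟨?_, ?_⟩
    · rintro ⟨b, hb, hbw⟩ ⟨b', hb', hbw'⟩ h
      have h1 := congrArg Subtype.val h
      dsimp only at h1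
      have h2 := congrArg Subtype.val (e.injective h1)
      dsimp only at h2
      subst h2
      rfl
    · rintro ⟨a, ha⟩
      refine ⟨⟨((e.symm a : ↥B) : G), (e.symm a).2, ?_⟩, ?_⟩
      · have h1 : e.symm a * ⟨w, hw⟩ = ⟨w, hw⟩ * e.symm a := by
          apply e.injective
          rw [map_mul, map_mul, e.apply_symm_apply]
          exact ha
        exact congrArg Subtype.val h1
      · apply Subtype.ext
        dsimp only
        rw [Subtype.coe_eta, e.apply_symm_apply]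
  · intro b hb h
    have h1 := hs (e ⟨b, hb⟩) (hcomm b hb h)
    rw [← map_mul] at h1
    have h2 : (⟨b, hb⟩ : ↥B) * ⟨b, hb⟩ = 1 := by
      apply e.injective; rw [h1, map_one]
    exact congrArg Subtype.val h2

/-- [CENT] -/
theorem pkgCent : PkgCent.{u} := by
  intro G _ _ z t Q V B hz ht hzt hQC hQz hCz hprod hV hB hBz hCt v hvC hvQ hvv
  obtain ⟨hVC, hBC, hcomm, hVB, hsup⟩ := hprod
  obtain ⟨e⟩ := hB
  have hzz := sq_of_orderOf_two hz
  have htt := sq_of_orderOf_two ht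
  have hz1 := ne_one_of_orderOf_two hz
  have hCmem : ∀ (s x : G), x ∈ Subgroup.centralizer ({s} : Set G) ↔ x * s = s * x := by
    intro s x
    rw [Subgroup.mem_centralizer_iff]
    constructor
    · intro h; exact (h s rfl).symm
    · intro h y hy
      rw [Set.mem_singleton_iff] at hy
      subst hy
      exact h.symm
  have hv1 : v ≠ 1 := fun h => hvQ (h ▸ Q.one_mem)
  have hv2 : orderOf v = 2 := orderOf_two_of hv1 hvv
  obtain ⟨g, hg⟩ := isConj_iff.mp (hCz v hvC hv2 hvQ)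
  -- `t = g v g⁻¹`; transport everything by `x ↦ g x g⁻¹`
  have hvz : v * z = z * v := (hCmem z v).mp hvC
  have hconj : ∀ x : G, IsConj x (g * x * g⁻¹) := fun x => isConj_iff.mpr ⟨g, rfl⟩
  have hconj' : ∀ x : G, IsConj x (g⁻¹ * x * g) := fun x => isConj_iff.mpr ⟨g⁻¹, by group⟩
  -- `z' = g z g⁻¹ ∈ B`
  have hz't : g * z * g⁻¹ * t = t * (g * z * g⁻¹) := by
    rw [← hg]
    calc g * z * g⁻¹ * (g * v * g⁻¹) = g * (z * v) * g⁻¹ := by group
      _ = g * (v * z) * g⁻¹ := by rw [hvz]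
      _ = g * v * g⁻¹ * (g * z * g⁻¹) := by group
  have hz'2 : orderOf (g * z * g⁻¹) = 2 := isConj_orderOf_two (hconj z) hz
  have hz'B : g * z * g⁻¹ ∈ B := by
    by_contra h
    exact hzt ((hconj z).trans (hCt _ ((hCmem t _).mpr hz't) hz'2 h))
  have hz'1 := ne_one_of_orderOf_two hz'2
  have hz'sq := sq_of_orderOf_two hz'2
  obtain ⟨hcard, hsq⟩ := cent_invol_of_iso B e (g * z * g⁻¹) hz'B hz'1 hz'sq
  -- elements of `C(t)` commuting with `z'` have square one
  have key : ∀ x : G, x * t = t * x → x * (g * z * g⁻¹) = g * z * g⁻¹ * x → x * x = 1 := by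
    intro x hxt hxz
    have hxC : x ∈ V ⊔ B := by rw [hsup]; exact (hCmem t x).mpr hxt
    obtain ⟨a, ha, b, hb, rfl⟩ := exists_mul_of_mem_sup_comm V B hcomm hxC
    have haz : a * (g * z * g⁻¹) = g * z * g⁻¹ * a := hcomm a ha _ hz'B
    have hbz : b * (g * z * g⁻¹) = g * z * g⁻¹ * b := by
      have h1 : a * (b * (g * z * g⁻¹)) = a * (g * z * g⁻¹ * b) := by
        calc a * (b * (g * z * g⁻¹)) = a * b * (g * z * g⁻¹) := (mul_assoc _ _ _).symm
          _ = g * z * g⁻¹ * (a * b) := hxz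
          _ = g * z * g⁻¹ * a * b := (mul_assoc _ _ _).symm
          _ = a * (g * z * g⁻¹) * b := by rw [haz]
          _ = a * (g * z * g⁻¹ * b) := mul_assoc _ _ _
      exact mul_left_cancel h1
    have hbb := hsq b hb hbz
    have haa : a * a = 1 := by rw [← sq]; exact hV a ha
    have hab : a * b = b * a := hcomm a ha b hb
    calc a * b * (a * b) = a * (b * a) * b := by group
      _ = a * (a * b) * b := by rw [hab]
      _ = (a * a) * (b * b) := by group
      _ = 1 := by rw [haa, hbb, one_mul]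
  -- for `q ∈ Q` commuting with `v`: the conjugate commutes with `t` and `z'`
  have hq1 : ∀ q : G, v * q = q * v → g * q * g⁻¹ * t = t * (g * q * g⁻¹) := by
    intro q hq
    rw [← hg]
    calc g * q * g⁻¹ * (g * v * g⁻¹) = g * (q * v) * g⁻¹ := by group
      _ = g * (v * q) * g⁻¹ := by rw [hq]
      _ = g * v * g⁻¹ * (g * q * g⁻¹) := by group
  have hq2 : ∀ q ∈ Q, g * q * g⁻¹ * (g * z * g⁻¹) = g * z * g⁻¹ * (g * q * g⁻¹) := by
    intro q hq
    have hqz : q * z = z * q := (hCmem z q).mp (hQC hq)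
    calc g * q * g⁻¹ * (g * z * g⁻¹) = g * (q * z) * g⁻¹ := by group
      _ = g * (z * q) * g⁻¹ := by rw [hqz]
      _ = g * z * g⁻¹ * (g * q * g⁻¹) := by group
  have hqsq : ∀ q ∈ Q, v * q = q * v → q * q = 1 := by
    intro q hq hvq
    have h1 := key (g * q * g⁻¹) (hq1 q hvq) (hq2 q hq)
    calc q * q = g⁻¹ * (g * q * g⁻¹ * (g * q * g⁻¹)) * g := by group
      _ = 1 := by rw [h1]; group
  have hqB : ∀ q ∈ Q, v * q = q * v → g * q * g⁻¹ ∈ B := by
    intro q hq hvq
    by_cases hq1' : q = 1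
    · subst hq1'
      have : g * 1 * g⁻¹ = 1 := by group
      rw [this]; exact B.one_mem
    · have hqo : orderOf q = 2 := orderOf_two_of hq1' (hqsq q hq hvq)
      have hqz : IsConj q z := hQz q hq hqo
      by_contra h
      have h2 : orderOf (g * q * g⁻¹) = 2 := isConj_orderOf_two (hconj q) hqo
      have h3 : IsConj (g * q * g⁻¹) t := hCt _ ((hCmem t _).mpr (hq1 q hvq)) h2 h
      exact hzt (hqz.symm.trans ((hconj q).trans h3))
  refine ⟨?_, hqsq⟩
  rw [← hcard]
  refine Nat.card_eq_of_bijective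
    (fun q => ⟨g * q.1 * g⁻¹, hqB q.1 q.2.1 q.2.2, hq2 q.1 q.2.1⟩) ⟨?_, ?_⟩
  · rintro ⟨q, hq, hvq⟩ ⟨q', hq', hvq'⟩ h
    have h1 := congrArg Subtype.val h
    dsimp only at h1
    have h2 : q = q' := by
      calc q = g⁻¹ * (g * q * g⁻¹) * g := by group
        _ = g⁻¹ * (g * q' * g⁻¹) * g := by rw [h1]
        _ = q' := by group
    subst h2
    rfl
  · rintro ⟨b, hb, hbz⟩
    have hbt : b * t = t * b := (hCmem t b).mp (hBC hb)
    have hqv : v * (g⁻¹ * b * g) = g⁻¹ * b * g * v := by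
      have hv : v = g⁻¹ * t * g := by rw [← hg]; group
      rw [hv]
      calc g⁻¹ * t * g * (g⁻¹ * b * g) = g⁻¹ * (t * b) * g := by group
        _ = g⁻¹ * (b * t) * g := by rw [hbt]
        _ = g⁻¹ * b * g * (g⁻¹ * t * g) := by group
    have hqz : g⁻¹ * b * g * z = z * (g⁻¹ * b * g) := by
      calc g⁻¹ * b * g * z = g⁻¹ * (b * (g * z * g⁻¹)) * g := by group
        _ = g⁻¹ * (g * z * g⁻¹ * b) * g := by rw [hbz]
        _ = z * (g⁻¹ * b * g) := by group
    have hqQ : g⁻¹ * b * g ∈ Q := by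
      by_cases hb1 : b = 1
      · subst hb1
        have : g⁻¹ * 1 * g = 1 := by group
        rw [this]; exact Q.one_mem
      · have hbo : orderOf b = 2 := orderOf_two_of hb1 (hsq b hb hbz)
        have hbz' : IsConj b z := hBz b hb hbo
        by_contra h
        have h2 : orderOf (g⁻¹ * b * g) = 2 := isConj_orderOf_two (hconj' b) hbo
        have h3 : IsConj (g⁻¹ * b * g) t := hCz _ ((hCmem z _).mpr hqz) h2 h
        exact hzt (hbz'.symm.trans ((hconj' b).trans h3))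
    refine ⟨⟨g⁻¹ * b * g, hqQ, hqv⟩, ?_⟩
    apply Subtype.ext
    dsimp only
    group

end Cfsg.Agent.Lib.Helper68.HJO
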